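import Cfsg.Agent.H623.Pb.CycB
import Cfsg.Agent.H649.Transport
import Cfsg.Agent.S4551
import Cfsg.Agent.S0960
import Cfsg.Agent.H55.Pb.EpsMap

/-!
# S4822, task B3b (helper623)

`eps_cyc` : if `p² ∤ |C|` and `h v h⁻¹ = v ^ k` for `v, h ∈ N`, `v` of order `p`, then the order of `k` modulo `p` is at
most `eps p M N C`.

The proof (no Brauer trees): `K = N C_G(P)`; restriction is a bijection from the principal block of `K` onto that of `N`
(S4551), `k₀(G) + k₀(K) ≤ (|G : K| + 1) orb(K)` (Clifford), `k₀` is known for `G` and `K` (S0960), and `orb(N)` is at most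
`eps(N)` plus the number of classes of nontrivial elements of `P`.
-/

set_option autoImplicit false
open Cfsg Cfsg.Agent.H617.Pb
open Cfsg.Agent.Blocks.CyclicClasses Cfsg.Agent.Blocks.CyclicOrtho
open Cfsg.Agent.Characters.Core
open Cfsg.Agent.H649 (irrMap irrEquiv irrMap_apply irrMap_apply' blkMap_principalBlock irrMap_mem_blkMap)
open Subgroup

universe u

namespace Cfsg.Agent.H623.Pb

theorem orderOf_zmod_two (x : ZMod 2) : orderOf x ≤ 1 := by
  have h3 : x = 0 ∨ x = 1 := by
    revert x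
    decide
  rcases h3 with rfl | rfl
  · have : orderOf (0 : ZMod 2) = 0 := by
      rw [orderOf_eq_zero_iff']
      intro n hn
      rw [zero_pow hn.ne']
      exact zero_ne_one
    rw [this]
    exact Nat.zero_le _
  · rw [orderOf_one]

/-- the principal function is invariant -/
theorem one_le_eps {Γ : Type u} [Group Γ] [Finite Γ] {p : ℕ} [Fact p.Prime] {M : Ideal AlgInt} (hM : IsPModular p M)
    (N C : Subgroup Γ) : 1 ≤ eps p M N C := by
  classical
  have hp : p.Prime := Fact.out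
  have hMp : M.IsPrime := Cfsg.Agent.Blocks.Local.isPrime_of_isPModular hM
  let f : ↥N → ℂ := pRegularPart p (fun _ : ↥N => (1 : ℂ))
  have hf : f ∈ Inv p M N C := by
    refine ⟨Submodule.subset_span ⟨⟨fun _ => 1, isIrr_one⟩, ?_, rfl⟩, ?_⟩
    · intro g
      rw [sub_self]
      exact Cfsg.Agent.Blocks.Local.memLocalIdeal_zero
    · intro c _ x y h
      have ho : orderOf y = orderOf x := by
        rw [← Subgroup.orderOf_coe, ← Subgroup.orderOf_coe, h]
        exact orderOf_injective (MulAut.conj c).toMonoidHom (MulAut.conj c).injective (x : Γ)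
      show (if IsPRegular p y then (1 : ℂ) else 0) = if IsPRegular p x then (1 : ℂ) else 0
      unfold IsPRegular
      rw [ho]
  have hf1 : f 1 = 1 := by
    show (if IsPRegular p (1 : ↥N) then (1 : ℂ) else 0) = 1
    rw [if_pos]
    unfold IsPRegular
    rw [orderOf_one]
    exact hp.not_dvd_one
  have hne : (⟨f, hf⟩ : ↥(Inv p M N C)) ≠ 0 := by
    intro h
    have h1 : f = 0 := congrArg Subtype.val h
    rw [h1] at hf1
    exact zero_ne_one hf1
  unfold eps
  rw [Nat.one_le_iff_ne_zero]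
  intro h
  have h0 := Module.finrank_zero_iff.1 h
  exact hne (h0.elim _ _)

section
variable {G : Type u} [Group G] [Finite G] {p : ℕ} [hp : Fact p.Prime] {M : Ideal AlgInt}

/-- the orbits on the principal block of `K = N C_G(P)` -/
theorem orb_sup_le (hM : IsPModular p M) (N K : Subgroup G) [hN : N.Normal] [hK : K.Normal] (P : Sylow p G)
    (hPN : (P : Subgroup G) ≤ N) (hKe : K = N ⊔ centralizer ((P : Subgroup G) : Set G)) :
    orb M K ⊤ ≤ orb M N ⊤ := by
  classical
  have hNK : N ≤ K := by rw [hKe]; exact le_sup_left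
  have hCK : centralizer ((P : Subgroup G) : Set G) ≤ K := by rw [hKe]; exact le_sup_right
  have hPK : (P : Subgroup G) ≤ K := hPN.trans hNK
  let P' : Sylow p ↥K := P.subtype hPK
  have hP' : (P' : Subgroup ↥K) = (P : Subgroup G).subgroupOf K := rfl
  have hidx : ¬ p ∣ (N.subgroupOf K).index := by
    have hle : (P' : Subgroup ↥K) ≤ N.subgroupOf K := fun x hx => hPN hx
    intro h
    exact P'.not_dvd_index (h.trans (Subgroup.index_dvd_of_le hle))
  have hsup : N.subgroupOf K ⊔ centralizer ((P' : Subgroup ↥K) : Set ↥K) = ⊤ := by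
    rw [eq_top_iff]
    rintro ⟨l, hl⟩ -
    have hl' : l ∈ N ⊔ centralizer ((P : Subgroup G) : Set G) := hKe ▸ hl
    obtain ⟨n, hn, c, hc, rfl⟩ := mem_sup_of_normal_left.1 hl'
    have e : (⟨n * c, hl⟩ : ↥K) = ⟨n, hNK hn⟩ * ⟨c, hCK hc⟩ := rfl
    rw [e]
    apply mul_mem_sup
    · exact hn
    · rw [hP', mem_centralizer_iff]
      intro x hx
      exact Subtype.ext (mem_centralizer_iff.1 hc x hx)
  obtain ⟨h1, h2⟩ := S4551.result p M hM (N.subgroupOf K) hidx P' hsup
  let eN : ↥(N.subgroupOf K) ≃* ↥N := subgroupOfEquivOfLe hNK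
  have heN : ∀ (x : G) (hx : x ∈ N), eN.symm ⟨x, hx⟩ = ⟨⟨x, hNK hx⟩, hx⟩ := fun x hx => by
    rw [MulEquiv.symm_apply_eq]
    rfl
  -- the restriction
  have hres : ∀ χ : ↥(principalBlock M ↥K), ∃ θ : ↥(principalBlock M ↥N), ∀ (x : G) (hx : x ∈ N),
      ((θ : IrrCharacter ↥N) : ↥N → ℂ) ⟨x, hx⟩ = ((χ : IrrCharacter ↥K) : ↥K → ℂ) ⟨x, hNK hx⟩ := by
    intro χ
    obtain ⟨θ, hθ, hχθ⟩ := h1 χ χ.2
    refine ⟨⟨irrMap eN θ, ?_⟩, ?_⟩
    · rw [← blkMap_principalBlock eN, irrMap_mem_blkMap]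
      exact hθ
    · intro x hx
      show (irrMap eN θ : ↥N → ℂ) ⟨x, hx⟩ = _
      rw [irrMap_apply, heN, ← hχθ]
  choose r hr using hres
  have huniq : ∀ χ χ' : ↥(principalBlock M ↥K),
      (∀ (x : G) (hx : x ∈ N), ((χ : IrrCharacter ↥K) : ↥K → ℂ) ⟨x, hNK hx⟩ =
        ((χ' : IrrCharacter ↥K) : ↥K → ℂ) ⟨x, hNK hx⟩) → χ = χ' := by
    intro χ χ' h
    obtain ⟨θ, hθ, hχθ⟩ := h1 χ χ.2
    obtain ⟨ψ, -, hψ⟩ := h2 θ hθ
    have e1 := hψ χ ⟨χ.2, hχθ⟩
    have e2 := hψ χ' ⟨χ'.2, fun n => by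
      rw [← hχθ n]
      exact (h _ n.2).symm⟩
    exact Subtype.ext (e1.trans e2.symm)
  let f : Quot (rel M K) → Quot (rel M N) := Quot.map r fun χ χ' h => by
    obtain ⟨c, hc, h3⟩ := h
    refine ⟨c, hc, fun x y hxy => ?_⟩
    have h4 := hr χ x x.2
    have h5 := hr χ' y y.2
    rw [show ((r χ' : IrrCharacter ↥N) : ↥N → ℂ) y = _ from h5, show ((r χ : IrrCharacter ↥N) : ↥N → ℂ) x = _ from h4]
    exact h3 _ _ hxy
  have hf : Function.Injective f := by
    intro q q' h
    obtain ⟨χ, rfl⟩ := Quot.exists_rep q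
    obtain ⟨χ', rfl⟩ := Quot.exists_rep q'
    have h3 : Quot.mk (rel M N) (r χ) = Quot.mk (rel M N) (r χ') := h
    obtain ⟨c, hc⟩ := (mk_eq_iff N (r χ) (r χ')).1 h3
    refine (mk_eq_iff K χ χ').2 ⟨c, huniq _ _ fun x hx => ?_⟩
    have hcx : c * x * c⁻¹ ∈ N := hN.conj_mem x hx c
    rw [cj_apply K c χ (x := ⟨x, hNK hx⟩) (y := ⟨c * x * c⁻¹, hNK hcx⟩) rfl, ← hr χ _ hcx, ← hr χ' _ hx, hc,
      cj_apply N c (r χ) (x := ⟨x, hx⟩) (y := ⟨c * x * c⁻¹, hcx⟩) rfl]
  have : Finite (IrrCharacter ↥N) := finite_irr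
  have : Finite (Quot (rel M N)) := Quot.finite _
  rw [orb_eq, orb_eq]
  exact Nat.card_le_card_of_injective f hf

omit hp [Finite G] in
theorem centralizer_subgroupOf (P K : Subgroup G) (hPK : P ≤ K) :
    centralizer ((P.subgroupOf K : Subgroup ↥K) : Set ↥K) = (centralizer (P : Set G)).subgroupOf K := by
  ext c
  rw [mem_subgroupOf, mem_centralizer_iff, mem_centralizer_iff]
  constructor
  · intro h x hx
    exact congrArg Subtype.val (h ⟨x, hPK hx⟩ hx)
  · intro h x hx
    exact Subtype.ext (h x hx)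

omit hp [Finite G] in
theorem normalizer_subgroupOf' (P K : Subgroup G) (hPK : P ≤ K) :
    normalizer ((P.subgroupOf K : Subgroup ↥K) : Set ↥K) = (normalizer (P : Set G)).subgroupOf K := by
  ext c
  rw [mem_subgroupOf, mem_normalizer_iff, mem_normalizer_iff]
  constructor
  · intro h x
    constructor
    · intro hx
      exact (h ⟨x, hPK hx⟩).1 hx
    · intro hx
      have h1 : x ∈ K := by
        have h2 := K.mul_mem (K.mul_mem (K.inv_mem c.2) (hPK hx)) c.2
        have h3 : (c : G)⁻¹ * ((c : G) * x * (c : G)⁻¹) * c = x := by group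
        rwa [h3] at h2
      exact (h ⟨x, h1⟩).2 hx
  · intro h x
    exact h x

/-- the indices -/
theorem relIndex_eq (N K : Subgroup G) [hN : N.Normal] [hK : K.Normal] (P : Sylow p G) (hPN : (P : Subgroup G) ≤ N)
    (hNK : N ≤ K) (hCK : centralizer ((P : Subgroup G) : Set G) ≤ K) :
    (centralizer ((P : Subgroup G) : Set G)).relIndex (normalizer ((P : Subgroup G) : Set G)) =
      K.index * (centralizer (((P.subtype (hPN.trans hNK) : Sylow p ↥K) : Subgroup ↥K) : Set ↥K)).relIndex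
        (normalizer (((P.subtype (hPN.trans hNK) : Sylow p ↥K) : Subgroup ↥K) : Set ↥K)) := by
  have hPK := hPN.trans hNK
  have e1 : ((P.subtype hPK : Sylow p ↥K) : Subgroup ↥K) = (P : Subgroup G).subgroupOf K := rfl
  have e2 := centralizer_subgroupOf (P : Subgroup G) K hPK
  have e3 := normalizer_subgroupOf' (P : Subgroup G) K hPK
  rw [e1, e2, e3]
  set Nn := normalizer ((P : Subgroup G) : Set G) with hNn
  set Cc := centralizer ((P : Subgroup G) : Set G) with hCc
  have hCN : Cc ≤ Nn := by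
    intro c hc
    rw [hNn, mem_normalizer_iff]
    intro x
    constructor
    · intro hx
      have h1 : c * x * c⁻¹ = x := by
        rw [← mem_centralizer_iff.1 hc x hx, mul_inv_cancel_right]
      rwa [h1]
    · intro hx
      have h1 := mem_centralizer_iff.1 hc _ hx
      have h2 : c * x * c⁻¹ * c = c * x := by group
      rw [h2] at h1
      have h3 : c * x * c⁻¹ = x := mul_left_cancel h1.symm
      rwa [h3] at hx
  have h1 : Nn.subgroupOf K = (Nn ⊓ K).subgroupOf K := (inf_subgroupOf_right Nn K).symm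
  rw [h1, relIndex_subgroupOf inf_le_right]
  have h2 : Cc.relIndex (Nn ⊓ K) * (Nn ⊓ K).relIndex Nn = Cc.relIndex Nn :=
    relIndex_mul_relIndex _ _ _ (le_inf hCN hCK) inf_le_left
  have h3 : (Nn ⊓ K).relIndex Nn = K.index := by
    rw [inf_relIndex_left, ← relIndex_sup_right (H := Nn) (K := K)]
    have h4 : Nn ⊔ K = ⊤ := by
      rw [eq_top_iff, ← Sylow.normalizer_sup_eq_top' P hPN]
      exact sup_le le_sup_left (hNK.trans le_sup_right)
    rw [h4, relIndex_top_right]
  rw [← h2, h3, mul_comm]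

/-- `N C_G(P)` is normal -/
theorem normal_sup (N : Subgroup G) [hN : N.Normal] (P : Sylow p G) (hPN : (P : Subgroup G) ≤ N) :
    (N ⊔ centralizer ((P : Subgroup G) : Set G)).Normal := by
  constructor
  intro x hx g
  have htop : normalizer ((P : Subgroup G) : Set G) ⊔ N = ⊤ := Sylow.normalizer_sup_eq_top' P hPN
  have hg : g ∈ normalizer ((P : Subgroup G) : Set G) ⊔ N := by
    rw [htop]
    exact mem_top g
  obtain ⟨m, hm, n, hn, rfl⟩ := mem_sup_of_normal_right.1 hg
  have hnS : n ∈ N ⊔ centralizer ((P : Subgroup G) : Set G) := (le_sup_left : N ≤ _) hn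
  have hx' := mul_mem (mul_mem hnS hx) (inv_mem hnS)
  obtain ⟨a, ha, c, hc, hac⟩ := mem_sup_of_normal_left.1 hx'
  have h1 : m * n * x * (m * n)⁻¹ = (m * a * m⁻¹) * (m * c * m⁻¹) := by
    have : m * n * x * (m * n)⁻¹ = m * (n * x * n⁻¹) * m⁻¹ := by group
    rw [this, ← hac]
    group
  rw [h1]
  refine mul_mem_sup (hN.conj_mem a ha m) ?_
  rw [mem_centralizer_iff]
  intro y hy
  have hy' : m⁻¹ * y * m ∈ (P : Subgroup G) := by
    have h2 := (mem_normalizer_iff.1 (inv_mem hm) y).1 hy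
    rwa [inv_inv] at h2
  have h2 := mem_centralizer_iff.1 hc _ hy'
  have h3 : m * (m⁻¹ * y * m * c) * m⁻¹ = m * (c * (m⁻¹ * y * m)) * m⁻¹ := by rw [h2]
  have h4 : m * (m⁻¹ * y * m * c) * m⁻¹ = y * (m * c * m⁻¹) := by group
  have h5 : m * (c * (m⁻¹ * y * m)) * m⁻¹ = m * c * m⁻¹ * y := by group
  rw [h4, h5] at h3
  exact h3

/-- the order of the automizer -/
theorem orderOf_le_relIndex (P : Sylow p G) (hP : Nat.card P = p) (v h : G) (hv : v ∈ P) (hv1 : v ≠ 1) (k : ℕ)
    (hk : h * v * h⁻¹ = v ^ k) :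
    orderOf (k : ZMod p) ≤ (centralizer ((P : Subgroup G) : Set G)).relIndex
      (normalizer ((P : Subgroup G) : Set G)) := by
  classical
  rw [← card_conj_mem P hP hv hv1]
  have hvo : orderOf v = p := orderOf_eq P hP hv hv1
  by_cases hk0 : (k : ZMod p) = 0
  · rw [hk0]
    have : orderOf (0 : ZMod p) = 0 := by
      rw [orderOf_eq_zero_iff']
      intro n hn
      rw [zero_pow hn.ne']
      exact zero_ne_one
    rw [this]
    exact Nat.zero_le _
  · let w : (ZMod p)ˣ := Units.mk0 (k : ZMod p) hk0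
    have hw : orderOf w = orderOf (k : ZMod p) := by
      rw [← orderOf_units]
      rfl
    have hpow : ∀ i : ℕ, h ^ i * v * (h ^ i)⁻¹ = v ^ (k ^ i) := by
      intro i
      induction i with
      | zero => simp
      | succ i ih =>
        have h1 : h ^ (i + 1) * v * (h ^ (i + 1))⁻¹ = h * (h ^ i * v * (h ^ i)⁻¹) * h⁻¹ := by
          rw [pow_succ']
          group
        rw [h1, ih]
        have h2 : h * v ^ (k ^ i) * h⁻¹ = (h * v * h⁻¹) ^ (k ^ i) := (conj_pow).symm
        rw [h2, hk, ← pow_mul, pow_succ, mul_comm]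
    have : Finite {y : G // y ∈ P ∧ IsConj v y} := inferInstance
    rw [← hw, ← Nat.card_fin (orderOf w)]
    refine Nat.card_le_card_of_injective (fun i : Fin (orderOf w) =>
      (⟨v ^ (k ^ (i : ℕ)), (P : Subgroup G).pow_mem hv _, isConj_iff.2 ⟨h ^ (i : ℕ), hpow i⟩⟩ :
        {y : G // y ∈ P ∧ IsConj v y})) ?_
    intro i j hij
    have h1 : v ^ (k ^ (i : ℕ)) = v ^ (k ^ (j : ℕ)) := congrArg Subtype.val hij
    have h2 : (k ^ (i : ℕ)) ≡ (k ^ (j : ℕ)) [MOD p] := by
      have h3 := pow_eq_pow_iff_modEq.1 h1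
      rwa [hvo] at h3
    have h3 := (ZMod.natCast_eq_natCast_iff _ _ _).2 h2
    push_cast at h3
    have h4 : w ^ (i : ℕ) = w ^ (j : ℕ) := Units.ext (by
      rw [Units.val_pow_eq_pow_val, Units.val_pow_eq_pow_val]
      exact h3)
    exact Fin.ext (pow_injOn_Iio_orderOf i.2 j.2 h4)

/-- the case `C = ⊤` -/
theorem eps_cyc_top (hp2 : p ≠ 2) (hM : IsPModular p M) (N : Subgroup G) [hN : N.Normal] (hG : ¬ p ^ 2 ∣ Nat.card G)
    (v h : G) (hv : v ∈ N) (hh : h ∈ N) (hvp : orderOf v = p) (k : ℕ) (hk : h * v * h⁻¹ = v ^ k) :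
    orderOf (k : ZMod p) ≤ eps p M N ⊤ := by
  classical
  have hp' := hp.out
  -- the Sylow subgroup
  have hcv : Nat.card (zpowers v) = p := by rw [Nat.card_zpowers, hvp]
  have hpG : p ∣ Nat.card G := by
    rw [← hcv]
    exact card_subgroup_dvd_card _
  have hfac : (Nat.card G).factorization p = 1 := by
    apply le_antisymm
    · by_contra hc
      exact hG ((hp'.pow_dvd_iff_le_factorization Nat.card_pos.ne').2 (by omega))
    · exact (hp'.dvd_iff_one_le_factorization Nat.card_pos.ne').1 hpG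
  let P : Sylow p G := Sylow.ofCard (zpowers v) (by rw [hfac, pow_one, hcv])
  have hPz : (P : Subgroup G) = zpowers v := rfl
  have hP : Nat.card P = p := hcv
  have hPN : (P : Subgroup G) ≤ N := by
    rw [hPz, zpowers_le]
    exact hv
  have hv1 : v ≠ 1 := by
    intro h1
    rw [h1, orderOf_one] at hvp
    exact hp'.one_lt.ne hvp
  set K : Subgroup G := N ⊔ centralizer ((P : Subgroup G) : Set G) with hKe
  have hKn : K.Normal := normal_sup N P hPN
  have hNK : N ≤ K := le_sup_left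
  have hCK : centralizer ((P : Subgroup G) : Set G) ≤ K := le_sup_right
  have hPK := hPN.trans hNK
  let P' : Sylow p ↥K := P.subtype hPK
  have hP' : Nat.card P' = p := (Nat.card_congr (Subgroup.subgroupOfEquivOfLe hPK).toEquiv).trans hP
  -- the block counts
  have h1 := (S0960.result p M hM hp2 P hP _ rfl).1
  have h2 := (S0960.result p M hM hp2 P' hP' _ rfl).1
  have h3 := relIndex_eq N K P hPN hNK hCK
  have h4 := card_cls P hP
  have h5 := card_cls P' hP'
  have h6 := k0_add_le hM K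
  have h7 := orb_sup_le hM N K P hPN hKe
  have h8 := orb_le hM N P hP hPN
  have h9 : orderOf (k : ZMod p) ≤ (centralizer ((P' : Subgroup ↥K) : Set ↥K)).relIndex
      (normalizer ((P' : Subgroup ↥K) : Set ↥K)) := by
    refine orderOf_le_relIndex P' hP' ⟨v, hNK hv⟩ ⟨h, hNK hh⟩ ?_ ?_ k ?_
    · show v ∈ (P : Subgroup G)
      rw [hPz]
      exact mem_zpowers v
    · intro h10
      exact hv1 (congrArg Subtype.val h10)
    · exact Subtype.ext hk
  change k0 M G = _ at h1
  change k0 M ↥K = _ at h2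
  change (centralizer ((P : Subgroup G) : Set G)).relIndex (normalizer ((P : Subgroup G) : Set G)) =
    K.index * (centralizer ((P' : Subgroup ↥K) : Set ↥K)).relIndex (normalizer ((P' : Subgroup ↥K) : Set ↥K)) at h3
  generalize (centralizer ((P : Subgroup G) : Set G)).relIndex (normalizer ((P : Subgroup G) : Set G)) = eG at *
  generalize (centralizer ((P' : Subgroup ↥K) : Set ↥K)).relIndex (normalizer ((P' : Subgroup ↥K) : Set ↥K)) = eK at *
  generalize Nat.card (Cls P) = m at *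
  generalize Nat.card (Cls P') = m' at *
  have hp1 : 0 < p - 1 := by have := hp'.two_le; omega
  have he0 : 0 < eG := by
    rcases Nat.eq_zero_or_pos eG with h10 | h10
    · rw [h10, mul_zero] at h4; omega
    · exact h10
  have hk0 : 0 < eK := by
    rcases Nat.eq_zero_or_pos eK with h10 | h10
    · rw [h10, mul_zero] at h5; omega
    · exact h10
  have h10 : (p - 1) / eG = m := by rw [← h4, Nat.mul_div_cancel _ he0]
  have h11 : (p - 1) / eK = m * K.index := by
    rw [← h4, h3, ← mul_assoc, Nat.mul_div_cancel _ hk0]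
  rw [h10] at h1
  rw [h11] at h2
  rw [h1, h2, h3] at h6
  generalize K.index = g at *
  generalize orb M N ⊤ = o at *
  generalize orb M K ⊤ = o' at *
  generalize eps p M N ⊤ = ε at *
  -- `(g + 1) (eK + m) ≤ (g + 1) o'`
  have h12 : (g + 1) * (eK + m) ≤ (g + 1) * o' := by
    refine le_trans (le_of_eq ?_) h6
    ring
  have h13 := Nat.le_of_mul_le_mul_left h12 (Nat.succ_pos g)
  omega

end

/-- **B3b: Sylow subgroups of order `p`** -/
theorem eps_cyc {Γ : Type u} [Group Γ] [Finite Γ] {p : ℕ} [Fact p.Prime] {M : Ideal AlgInt}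
    (hM : IsPModular p M) (N C : Subgroup Γ) (hNC : N ≤ C)
    (hn : ∀ c ∈ C, ∀ x ∈ N, c * x * c⁻¹ ∈ N) (hC : ¬ p ^ 2 ∣ Nat.card C)
    (v h : Γ) (hv : v ∈ N) (hh : h ∈ N) (hvp : orderOf v = p) (k : ℕ) (hk : h * v * h⁻¹ = v ^ k) :
    orderOf (k : ZMod p) ≤ eps p M N C := by
  by_cases hp2 : p = 2
  · subst hp2
    exact (orderOf_zmod_two _).trans (one_le_eps hM N C)
  · have hNn : (N.subgroupOf C).Normal := ⟨fun x hx c => hn c c.2 x hx⟩
    have h1 := eps_cyc_top hp2 hM (N.subgroupOf C) hC ⟨v, hNC hv⟩ ⟨h, hNC hh⟩ hv hh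
      (by rw [← hvp, ← Subgroup.orderOf_coe]) k (Subtype.ext hk)
    have h2 := Cfsg.Agent.H55.Pb.eps_map hM N C hNC hn (MonoidHom.id ↥C)
    have h3 : (N.subgroupOf C).map (MonoidHom.id ↥C) = N.subgroupOf C := Subgroup.map_id _
    have h4 : (MonoidHom.id ↥C).range = ⊤ := MonoidHom.range_eq_top.2 fun x => ⟨x, rfl⟩
    rw [h3, h4] at h2
    exact h1.trans h2

end Cfsg.Agent.H623.Pb
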